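import Cfsg.Agent.H816.M23.Cnt
import Cfsg.Agent.CharDeep.DegreeBound

/-!
# The square of the class sum `2A` of the Monster on an irreducible character: abstract part (helper816)
-/

set_option autoImplicit false
set_option linter.unusedSectionVars false

namespace Cfsg.Agent.H816.M23.Abs

open Cfsg Cfsg.Agent.H816.IMEig Cfsg.Agent.H816.MEigL
open Finset

universe u v

section gen

variable {G : Type u} [Group G] {Ω : Type v} [MulAction G Ω] [Fintype G] [Fintype Ω]

theorem sum_orbit (hO : ∀ x y : Ω, ∃ g : G, g • x = y) (F : Ω → ℂ) (x : Ω) :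
    (Nat.card Ω : ℂ) * ∑ a : G, F (a • x) = (Nat.card G : ℂ) * ∑ y, F y := by
  have h1 : ∀ x' : Ω, ∑ a : G, F (a • x') = ∑ a : G, F (a • x) := by
    intro x'
    obtain ⟨k, rfl⟩ := hO x x'
    simp_rw [← mul_smul]
    exact Fintype.sum_equiv (Equiv.mulRight k) _ _ fun a => rfl
  have h2 : ∀ a : G, ∑ x' : Ω, F (a • x') = ∑ y, F y := fun a =>
    Fintype.sum_equiv (MulAction.toPerm a) _ _ fun x' => rfl
  have h3 : ∑ x' : Ω, ∑ a : G, F (a • x') = (Nat.card Ω : ℂ) * ∑ a : G, F (a • x) := by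
    simp only [h1, Finset.sum_const, Finset.card_univ, nsmul_eq_mul, Nat.card_eq_fintype_card]
  rw [← h3, Finset.sum_comm]
  simp only [h2, Finset.sum_const, Finset.card_univ, nsmul_eq_mul, Nat.card_eq_fintype_card]

theorem sum_pairs {K : Type*} [Semiring K] (hO : ∀ x y : Ω, ∃ g : G, g • x = y) (F : Ω → Ω → K)
    (hF : ∀ (g : G) (x y : Ω), F (g • x) (g • y) = F x y) (x : Ω) :
    ∑ x', ∑ y, F x' y = (Nat.card Ω : K) * ∑ y, F x y := by
  have h1 : ∀ x' : Ω, ∑ y, F x' y = ∑ y, F x y := by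
    intro x'
    obtain ⟨k, rfl⟩ := hO x x'
    exact (Fintype.sum_equiv (MulAction.toPerm k) _ _ fun y => (hF k x y).symm).symm
  simp only [h1, Finset.sum_const, Finset.card_univ, nsmul_eq_mul, Nat.card_eq_fintype_card]

/-- Cauchy-Schwarz. -/
theorem cs {α β : Type*} [Fintype β] [DecidableEq β] (P : Finset α) (φ : α → β) (f : β → ℂ) :
    ‖∑ p ∈ P, f (φ p)‖ ^ 2 ≤ ((∑ p ∈ P, (P.filter fun q => φ q = φ p).card : ℕ) : ℝ) * ∑ g, ‖f g‖ ^ 2 := by
  set M : β → ℕ := fun g => (P.filter fun q => φ q = g).card with hM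
  have h1 : ∑ p ∈ P, ‖f (φ p)‖ = ∑ g, (M g : ℝ) * ‖f g‖ := by
    rw [← Finset.sum_fiberwise P φ]
    refine Finset.sum_congr rfl fun g _ => ?_
    rw [Finset.sum_congr rfl (g := fun _ => ‖f g‖), Finset.sum_const, nsmul_eq_mul]
    intro p hp
    rw [(mem_filter.1 hp).2]
  have h2 : ((∑ p ∈ P, M (φ p) : ℕ) : ℝ) = ∑ g, (M g : ℝ) ^ 2 := by
    push_cast
    rw [← Finset.sum_fiberwise P φ]
    refine Finset.sum_congr rfl fun g _ => ?_
    rw [Finset.sum_congr rfl (g := fun _ => (M g : ℝ)), Finset.sum_const, nsmul_eq_mul, pow_two]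
    intro p hp
    rw [(mem_filter.1 hp).2]
  have h3 : ‖∑ p ∈ P, f (φ p)‖ ≤ ∑ g, (M g : ℝ) * ‖f g‖ := h1 ▸ norm_sum_le _ _
  calc ‖∑ p ∈ P, f (φ p)‖ ^ 2 ≤ (∑ g, (M g : ℝ) * ‖f g‖) ^ 2 := by
        exact pow_le_pow_left₀ (norm_nonneg _) h3 2
    _ ≤ (∑ g, (M g : ℝ) ^ 2) * ∑ g, ‖f g‖ ^ 2 := Finset.sum_mul_sq_le_sq_mul_sq _ _ _
    _ = _ := by rw [← h2]

end gen

namespace AX

variable {G : Type u} [Group G] {Ω : Type v} [MulAction G Ω] [Fintype Ω] {c : Ω → Ω → Fin 9} {T : Ω → G}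
variable (h : AX G Ω c T)
include h

theorem N_smul (g : G) (x y : Ω) : N T (g • x) (g • y) = N T x y := by
  classical
  unfold N
  symm
  refine Finset.card_bij (fun s _ => g • s) ?_ ?_ ?_
  · intro s hs
    obtain ⟨s', e⟩ := (mem_filter.1 hs).2
    refine mem_filter.2 ⟨mem_univ _, g • s', ?_⟩
    rw [h.smul, h.smul, h.smul, h.smul]
    calc g * T s * g⁻¹ * (g * T s' * g⁻¹) = g * (T s * T s') * g⁻¹ := by group
      _ = g * T x * g⁻¹ * (g * T y * g⁻¹) := by rw [e]; group
  · intro s _ s' _ e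
    exact MulAction.injective g e
  · intro s hs
    obtain ⟨s', e⟩ := (mem_filter.1 hs).2
    refine ⟨g⁻¹ • s, mem_filter.2 ⟨mem_univ _, g⁻¹ • s', ?_⟩, smul_inv_smul g s⟩
    rw [h.smul, h.smul] at e
    rw [h.smul, h.smul]
    calc g⁻¹ * T s * g⁻¹⁻¹ * (g⁻¹ * T s' * g⁻¹⁻¹) = g⁻¹ * (T s * T s') * g := by group
      _ = T x * T y := by rw [e]; group

/-- **The square of the class sum.** -/
theorem char_sq [Finite G] {χ : G → ℂ} (hχ : IsIrrCharacter G χ) (x : Ω) :
    ‖(Nat.card Ω : ℂ) * (χ (T x) ^ 2 / χ 1) - χ 1 - (Col.kk c x 1 : ℂ) * χ (T x)‖ ^ 2 * (Nat.card Ω : ℝ) ≤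
      (Nat.card G : ℝ) * ((A c T x 2 + A c T x 3 + A c T x 4 + A c T x 5 + A c T x 6 + A c T x 7 + A c T x 8 : ℕ) : ℝ) := by
  classical
  have hFG := Fintype.ofFinite G
  have hO := fun a b : Ω => h.col.exists_smul a b
  have hconj : ∀ a b : G, χ (b * a * b⁻¹) = χ a := (Characters.Core.isIrr_isClassFunction hχ)
  -- the class sum
  have hB : (Nat.card Ω : ℂ) * (χ (T x) ^ 2 / χ 1) = ∑ y, χ (T x * T y) := by
    have h1 := Characters.Central.sum_char_conj_mul hχ (T x) (T x)
    have h2 := sum_orbit hO (fun y => χ (T y * T x)) x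
    simp only [h.smul] at h2
    rw [h1] at h2
    have hG : (Nat.card G : ℂ) ≠ 0 := by exact_mod_cast Nat.card_pos.ne'
    have h3 : ∀ y, χ (T y * T x) = χ (T x * T y) := by
      intro y
      have := hconj (T x * T y) (T y)
      rw [← this]
      congr 1
      rw [h.inv, mul_assoc, mul_assoc, h.sq, mul_one]
    simp only [h3] at h2
    apply mul_left_cancel₀ hG
    rw [← h2]
    ring
  -- colours `0` and `1`
  set E : Ω → Ω → Prop := fun a b => c a b ≠ 0 ∧ c a b ≠ 1 with hE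
  have hsplit : ∑ y, χ (T x * T y) = χ 1 + (Col.kk c x 1 : ℂ) * χ (T x) + ∑ y, (if E x y then χ (T x * T y) else 0) := by
    have h1 : ∀ y, χ (T x * T y) = (if c x y = 0 then χ 1 else 0) + (if c x y = 1 then χ (T x) else 0) +
        (if E x y then χ (T x * T y) else 0) := by
      intro y
      by_cases h0 : c x y = 0
      · have : ¬ E x y := fun e => e.1 h0
        rw [if_pos h0, if_neg (by rw [h0]; decide), if_neg this, h.zero_one h0]
        ring
      · by_cases h1 : c x y = 1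
        · have : ¬ E x y := fun e => e.2 h1
          obtain ⟨w, hw⟩ := h.one x y h1
          obtain ⟨g, rfl⟩ := hO x w
          rw [if_neg h0, if_pos h1, if_neg this, hw, h.smul, hconj]
          ring
        · rw [if_neg h0, if_neg h1, if_pos ⟨h0, h1⟩]
          ring
    rw [Finset.sum_congr rfl fun y _ => h1 y, Finset.sum_add_distrib, Finset.sum_add_distrib]
    congr 2
    · simp only [h.col.diag]
      rw [Finset.sum_ite_eq]
      simp
    · rw [Finset.sum_ite, Finset.sum_const, Finset.sum_const_zero, add_zero, nsmul_eq_mul, kk_eq_card]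
  set r : ℂ := ∑ y, (if E x y then χ (T x * T y) else 0) with hr
  have hlhs : (Nat.card Ω : ℂ) * (χ (T x) ^ 2 / χ 1) - χ 1 - (Col.kk c x 1 : ℂ) * χ (T x) = r := by
    rw [hB, hsplit]
    ring
  rw [hlhs]
  -- the pairs
  set P : Finset (Ω × Ω) := univ.filter fun p => E p.1 p.2 with hP
  set φ : Ω × Ω → G := fun p => T p.1 * T p.2 with hφ
  have hsum : ∑ p ∈ P, χ (φ p) = (Nat.card Ω : ℂ) * r := by
    rw [hP, Finset.sum_filter, ← Finset.univ_product_univ, Finset.sum_product]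
    refine sum_pairs hO (fun a b => if E a b then χ (T a * T b) else 0) ?_ x
    intro g a b
    show (if E (g • a) (g • b) then χ (T (g • a) * T (g • b)) else 0) = if E a b then χ (T a * T b) else 0
    have e1 : E (g • a) (g • b) ↔ E a b := by
      simp only [hE, h.col.inv]
    have e2 : χ (T (g • a) * T (g • b)) = χ (T a * T b) := by
      rw [h.smul, h.smul, ← hconj (T a * T b) g]
      congr 1
      group
    rw [e2]
    exact if_congr e1 rfl rfl
  have hM : ∀ p ∈ P, (P.filter fun q => φ q = φ p).card ≤ N T p.1 p.2 := by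
    intro p _
    unfold N
    refine Finset.card_le_card_of_injOn Prod.fst ?_ ?_
    · intro q hq
      have := (mem_filter.1 (mem_coe.1 hq)).2
      exact mem_coe.2 (mem_filter.2 ⟨mem_univ _, q.2, this⟩)
    · intro q hq q' hq' e
      have h1 := (mem_filter.1 (mem_coe.1 hq)).2
      have h2 := (mem_filter.1 (mem_coe.1 hq')).2
      have h3 : T q.1 * T q.2 = T q'.1 * T q'.2 := h1.trans h2.symm
      rw [e] at h3
      exact Prod.ext e (h.inj _ _ (mul_left_cancel h3))
  have hN : ∑ p ∈ P, N T p.1 p.2 = Nat.card Ω * (A c T x 2 + A c T x 3 + A c T x 4 + A c T x 5 + A c T x 6 +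
      A c T x 7 + A c T x 8) := by
    rw [hP, Finset.sum_filter, ← Finset.univ_product_univ, Finset.sum_product]
    have e0 := sum_pairs (K := ℕ) hO (fun a b => if E a b then N T a b else 0) (by
      intro g a b
      show (if E (g • a) (g • b) then N T (g • a) (g • b) else 0) = if E a b then N T a b else 0
      rw [h.N_smul]
      refine if_congr ?_ rfl rfl
      simp only [hE, h.col.inv]) x
    rw [Nat.cast_id] at e0
    refine e0.trans ?_
    congr 1
    have e1 : ∀ y, (if E x y then N T x y else 0) = ∑ i ∈ ({2, 3, 4, 5, 6, 7, 8} : Finset (Fin 9)),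
        if c x y = i then N T x y else 0 := by
      intro y
      rw [Finset.sum_ite_eq]
      refine if_congr ?_ rfl rfl
      show (c x y ≠ 0 ∧ c x y ≠ 1) ↔ _
      generalize c x y = i
      revert i
      decide
    simp only [e1]
    rw [Finset.sum_comm]
    have e2 : ∀ i, ∑ y, (if c x y = i then N T x y else 0) = A c T x i := by
      intro i
      unfold A
      rw [Finset.sum_filter]
    simp only [e2]
    rw [Finset.sum_insert (by decide), Finset.sum_insert (by decide), Finset.sum_insert (by decide),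
      Finset.sum_insert (by decide), Finset.sum_insert (by decide), Finset.sum_insert (by decide),
      Finset.sum_singleton]
    ring
  set S : ℕ := A c T x 2 + A c T x 3 + A c T x 4 + A c T x 5 + A c T x 6 + A c T x 7 + A c T x 8 with hS
  have hcs := cs P φ χ
  rw [hsum, CharDeep.DegreeBound.sum_sq_irr hχ, norm_mul, mul_pow, Complex.norm_natCast] at hcs
  have h5 : ((∑ p ∈ P, (P.filter fun q => φ q = φ p).card : ℕ) : ℝ) ≤ (Nat.card Ω : ℝ) * (S : ℝ) := by
    have : ∑ p ∈ P, (P.filter fun q => φ q = φ p).card ≤ Nat.card Ω * S := (Finset.sum_le_sum hM).trans hN.le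
    exact_mod_cast this
  have hpos : (0 : ℝ) < (Nat.card Ω : ℝ) := by
    have : Nonempty Ω := ⟨x⟩
    exact_mod_cast Nat.card_pos
  have hG0 : (0 : ℝ) ≤ (Nat.card G : ℝ) := Nat.cast_nonneg _
  have h6 : (Nat.card Ω : ℝ) ^ 2 * ‖r‖ ^ 2 ≤ (Nat.card Ω : ℝ) * (S : ℝ) * (Nat.card G : ℝ) :=
    hcs.trans (mul_le_mul_of_nonneg_right h5 hG0)
  have h7 : (Nat.card Ω : ℝ) * (‖r‖ ^ 2 * (Nat.card Ω : ℝ)) ≤ (Nat.card Ω : ℝ) * ((Nat.card G : ℝ) * (S : ℝ)) := by
    calc (Nat.card Ω : ℝ) * (‖r‖ ^ 2 * (Nat.card Ω : ℝ)) = (Nat.card Ω : ℝ) ^ 2 * ‖r‖ ^ 2 := by ring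
      _ ≤ _ := h6
      _ = _ := by ring
  exact le_of_mul_le_mul_left h7 hpos

end AX

end Cfsg.Agent.H816.M23.Abs
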