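import Cfsg.Agent.H816.M23.Tx
import Cfsg.Agent.MonsterX.Instance

/-!
# Kernel checks for the pairs of axes of the Monster (helper816)
-/

set_option autoImplicit false
set_option maxRecDepth 100000

namespace Cfsg.Agent.H816.M23.Cks

open Cfsg Cfsg.Agent.MonsterX Cfsg.Agent.MonsterX.InstData Cfsg.Agent.MonsterX.CertUTab Cfsg.Agent.MonsterX.OrdChk
open Cfsg.Agent.H816.MRun

/-- The word of a representative. -/
noncomputable def gw (j m : ℕ) : List ℕ := bj j ++ uw j m

theorem ck3 : eqC (cyA (gw 2 5) []) (gw 2 5 ++ [13, 14]) = true := by decide +kernel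

theorem ck4 : eqC (cyA (gw 4 6) []) (gw 4 6 ++ [13, 14]) = true := by decide +kernel

theorem ck5 : eqC (cyA (gw 0 3) []) [1] = true := by decide +kernel

theorem ck7 : pairC 4 (gw 3 6) = true := by decide +kernel

/-- The possible values at `a₁`. -/
def cL : List ℤ := [256, 0, 64, 32, 40, 104, 48, 2048]

theorem ck6 : (cL.any fun c => chk 8 (cyA (gw 1 3) []) 256 c []) = true := by decide +kernel

theorem ck8 : (cL.any fun c => chk 8 (gw 2 4 ++ 13 :: 14 :: cyA (gw 2 4) []) 256 c []) = true := by decide +kernel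

end Cfsg.Agent.H816.M23.Cks
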