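import Cfsg.Agent.H816.M23.Abs
import Cfsg.Agent.H816.MEigL

/-!
# Counting pairs of `2A`-involutions with a given product: the counts (helper816)
-/

set_option autoImplicit false
set_option linter.unusedSectionVars false

namespace Cfsg.Agent.H816.M23.Abs

open Cfsg Cfsg.Agent.H816.IMEig Cfsg.Agent.H816.MEigL
open Finset

universe u v

variable {G : Type u} [Group G] {Ω : Type v} [MulAction G Ω] [Fintype Ω] {c : Ω → Ω → Fin 9} {T : Ω → G}

open Classical in
/-- The number of first members of pairs with the product `T x * T y`. -/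
noncomputable def N (T : Ω → G) (x y : Ω) : ℕ := (univ.filter fun s => R T (T x * T y) s).card

open Classical in
/-- The number of those of colour `j`. -/
noncomputable def n (c : Ω → Ω → Fin 9) (T : Ω → G) (x y : Ω) (j : Fin 9) : ℕ :=
  (univ.filter fun s => c x s = j ∧ R T (T x * T y) s).card

/-- The pairs `y, s` of colours `i`, `j`. -/
noncomputable def m (c : Ω → Ω → Fin 9) (T : Ω → G) (x : Ω) (i j : Fin 9) : ℕ :=
  ∑ y ∈ univ.filter (fun y => c x y = i), n c T x y j

/-- The sum over `y` of colour `i`. -/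
noncomputable def A (c : Ω → Ω → Fin 9) (T : Ω → G) (x : Ω) (i : Fin 9) : ℕ :=
  ∑ y ∈ univ.filter (fun y => c x y = i), N T x y

theorem N_eq (x y : Ω) : N T x y = ∑ j, n c T x y j := by
  classical
  unfold N n
  rw [Finset.card_eq_sum_card_fiberwise (f := fun s => c x s) (t := univ) (fun _ _ => mem_coe.2 (mem_univ _))]
  refine Finset.sum_congr rfl fun j _ => ?_
  rw [Finset.filter_filter]
  congr 1
  ext s
  simp only [mem_filter, mem_univ, true_and]
  tauto

theorem A_eq (x : Ω) (i : Fin 9) : A c T x i = ∑ j, m c T x i j := by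
  unfold A m
  rw [Finset.sum_comm]
  exact Finset.sum_congr rfl fun y _ => N_eq x y

theorem m_le (x : Ω) (i j : Fin 9) : m c T x i j ≤ A c T x i := by
  rw [A_eq]
  exact Finset.single_le_sum (f := fun j => m c T x i j) (fun _ _ => Nat.zero_le _) (mem_univ j)

theorem kk_eq_card (x : Ω) (i : Fin 9) : (univ.filter (fun y => c x y = i)).card = Col.kk c x i := by
  unfold Col.kk
  rw [Nat.card_eq_fintype_card, Fintype.card_subtype]

theorem A_le (x : Ω) (i : Fin 9) (B : ℕ) (hB : ∀ y, c x y = i → N T x y ≤ B) : A c T x i ≤ Col.kk c x i * B := by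
  unfold A
  rw [← kk_eq_card, ← smul_eq_mul]
  exact Finset.sum_le_card_nsmul _ _ _ fun y hy => hB y (mem_filter.1 hy).2

theorem m_le_of (x : Ω) (i j : Fin 9) (f : Ω → ℕ) (hf : ∀ y, c x y = i → n c T x y j ≤ f y) :
    m c T x i j ≤ ∑ y ∈ univ.filter (fun y => c x y = i), f y :=
  Finset.sum_le_sum fun y hy => hf y (mem_filter.1 hy).2

namespace AX

variable (h : AX G Ω c T)
include h

theorem m_symm (x : Ω) (i j : Fin 9) : m c T x i j = m c T x j i := by
  classical
  have key : ∀ i j, m c T x i j = ∑ y : Ω, ∑ s : Ω, if c x y = i ∧ c x s = j ∧ R T (T x * T y) s then 1 else 0 := by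
    intro i j
    unfold m n
    rw [Finset.sum_filter]
    refine Finset.sum_congr rfl fun y _ => ?_
    split_ifs with hy
    · rw [Finset.card_filter]
      refine Finset.sum_congr rfl fun s _ => ?_
      simp only [hy, true_and]
    · simp only [hy, false_and, if_false, Finset.sum_const_zero]
  rw [key, key, Finset.sum_comm]
  refine Finset.sum_congr rfl fun y _ => Finset.sum_congr rfl fun s _ => ?_
  refine if_congr ⟨fun ⟨a, b, e⟩ => ⟨b, a, h.R_symm e⟩, fun ⟨a, b, e⟩ => ⟨b, a, h.R_symm e⟩⟩ rfl rfl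

theorem m_le' (x : Ω) (i j : Fin 9) : m c T x i j ≤ A c T x j := by
  rw [h.m_symm]
  exact m_le x j i

theorem m_zero (x : Ω) (i : Fin 9) : m c T x i 0 ≤ Col.kk c x i := by
  classical
  rw [← kk_eq_card, Finset.card_eq_sum_ones]
  refine m_le_of x i 0 (fun _ => 1) fun y _ => ?_
  unfold n
  rw [Finset.card_le_one]
  intro a ha b hb
  have ha := (mem_filter.1 ha).2.1
  have hb := (mem_filter.1 hb).2.1
  rw [← (h.col.diag x a).1 ha, ← (h.col.diag x b).1 hb]

theorem mate_le {x y : Ω} {j : Fin 9} {P : Fin 9 → Prop} [DecidablePred P]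
    (hP : ∀ s s', c x s = j → T s * T s' = T x * T y → P (c x s')) :
    n c T x y j ≤ ∑ i ∈ univ.filter P, n c T x y i := by
  classical
  have h1 : ∑ i ∈ univ.filter P, n c T x y i = (univ.filter fun s => P (c x s) ∧ R T (T x * T y) s).card := by
    rw [Finset.card_eq_sum_card_fiberwise (f := fun s => c x s) (t := univ.filter P) (by
      intro s hs
      have := (mem_filter.1 (mem_coe.1 hs)).2.1
      exact mem_coe.2 (mem_filter.2 ⟨mem_univ _, this⟩))]
    refine Finset.sum_congr rfl fun i hi => ?_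
    unfold n
    rw [Finset.filter_filter]
    congr 1
    ext s
    simp only [mem_filter, mem_univ, true_and] at hi ⊢
    constructor
    · rintro ⟨rfl, e⟩; exact ⟨⟨hi, e⟩, rfl⟩
    · rintro ⟨⟨_, e⟩, rfl⟩; exact ⟨rfl, e⟩
  rw [h1]
  unfold n
  have hex : ∀ s : Ω, ∃ s', R T (T x * T y) s → T s * T s' = T x * T y := by
    intro s
    by_cases e : R T (T x * T y) s
    · obtain ⟨s', e'⟩ := e
      exact ⟨s', fun _ => e'⟩
    · exact ⟨s, fun e' => absurd e' e⟩
  choose f hf using hex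
  refine Finset.card_le_card_of_injOn f ?_ ?_
  · intro s hs
    obtain ⟨h2, h3⟩ := (mem_filter.1 (mem_coe.1 hs)).2
    have h4 := hf s h3
    refine mem_coe.2 (mem_filter.2 ⟨mem_univ _, hP s _ h2 h4, ?_⟩)
    rw [← h4]
    exact h.R_right _ _
  · intro s hs s' hs' e
    have h3 := hf s (mem_filter.1 (mem_coe.1 hs)).2.2
    have h4 := hf s' (mem_filter.1 (mem_coe.1 hs')).2.2
    rw [e] at h3
    exact h.inj _ _ (mul_right_cancel (h3.trans h4.symm))

/-- The pairs of colours `4B`, `4B`. -/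
theorem m66 (x : Ω) : m c T x 6 6 ≤ m c T x 6 0 + m c T x 6 1 + m c T x 6 2 := by
  classical
  have h1 : ∀ y, c x y = 6 → n c T x y 6 ≤ n c T x y 0 + n c T x y 1 + n c T x y 2 := by
    intro y hy
    refine (h.mate_le (P := fun i => i = 0 ∨ i = 1 ∨ i = 2) fun s s' hs e => h.six_mate hy hs e).trans ?_
    have : (univ.filter fun i : Fin 9 => i = 0 ∨ i = 1 ∨ i = 2) = {0, 1, 2} := by decide
    rw [this, Finset.sum_insert (by decide), Finset.sum_insert (by decide), Finset.sum_singleton, add_assoc]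
  refine (m_le_of x 6 6 _ h1).trans ?_
  rw [Finset.sum_add_distrib, Finset.sum_add_distrib]
  exact le_refl _

/-- The pairs of colours `6A`, `6A`. -/
theorem m88 (x : Ω) : m c T x 8 8 ≤ m c T x 8 0 + m c T x 8 3 + m c T x 8 4 := by
  classical
  have h1 : ∀ y, c x y = 8 → n c T x y 8 ≤ n c T x y 0 + n c T x y 3 + n c T x y 4 := by
    intro y hy
    refine (h.mate_le (P := fun i => i = 0 ∨ i = 3 ∨ i = 4) fun s s' hs e => h.eight_mate hy hs e).trans ?_
    have : (univ.filter fun i : Fin 9 => i = 0 ∨ i = 3 ∨ i = 4) = {0, 3, 4} := by decide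
    rw [this, Finset.sum_insert (by decide), Finset.sum_insert (by decide), Finset.sum_singleton, add_assoc]
  refine (m_le_of x 8 8 _ h1).trans ?_
  rw [Finset.sum_add_distrib, Finset.sum_add_distrib]
  exact le_refl _

theorem m8_zero (x : Ω) {j : Fin 9} (hj : j = 5 ∨ j = 6) : m c T x 8 j = 0 := by
  classical
  refine Nat.le_zero.1 ((m_le_of x 8 j (fun _ => 0) fun y hy => ?_).trans (by simp))
  unfold n
  rw [Nat.le_zero, Finset.card_eq_zero, Finset.filter_eq_empty_iff]
  rintro s - ⟨hs, e⟩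
  refine h.eight_four hy ?_ e
  rw [hs]
  exact hj

theorem A6 (x : Ω) : A c T x 6 ≤ 2 * (Col.kk c x 6 + A c T x 1 + A c T x 2) + A c T x 3 + A c T x 4 + A c T x 5 +
    A c T x 7 := by
  rw [A_eq (i := 6), sum9]
  unfold s9
  have h0 := h.m_zero x 6
  have h1 := h.m_le' x 6 1
  have h2 := h.m_le' x 6 2
  have h3 := h.m_le' x 6 3
  have h4 := h.m_le' x 6 4
  have h5 := h.m_le' x 6 5
  have h7 := h.m_le' x 6 7
  have h6 := h.m66 x
  have h8 : m c T x 6 8 = 0 := by rw [h.m_symm]; exact h.m8_zero x (Or.inr rfl)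
  omega

theorem A8 (x : Ω) : A c T x 8 ≤ 2 * Col.kk c x 8 + A c T x 1 + A c T x 2 + 2 * A c T x 3 + 2 * A c T x 4 +
    A c T x 7 := by
  rw [A_eq (i := 8), sum9]
  unfold s9
  have h0 := h.m_zero x 8
  have h1 := h.m_le' x 8 1
  have h2 := h.m_le' x 8 2
  have h3 := h.m_le' x 8 3
  have h4 := h.m_le' x 8 4
  have h7 := h.m_le' x 8 7
  have h8 := h.m88 x
  have h5 := h.m8_zero x (Or.inl rfl : (5 : Fin 9) = 5 ∨ (5 : Fin 9) = 6)
  have h6 := h.m8_zero x (Or.inr rfl : (6 : Fin 9) = 5 ∨ (6 : Fin 9) = 6)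
  omega

/-- Colour `2A`. -/
theorem N_one {x y : Ω} (hy : c x y = 1) : N T x y ≤ Col.kk c x 1 := by
  classical
  obtain ⟨w, hw⟩ := h.one x y hy
  rw [h.col.kk_eq x w, ← kk_eq_card]
  unfold N
  refine Finset.card_le_card fun s hs => ?_
  have e := (mem_filter.1 hs).2
  exact mem_filter.2 ⟨mem_univ _, h.one_sub hw e⟩

/-- Colour `4A`. -/
theorem N_five {x y : Ω} : N T x y ≤ N T x (T y • x) := by
  classical
  unfold N
  refine Finset.card_le_card fun s hs => ?_
  have e := (mem_filter.1 hs).2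
  exact mem_filter.2 ⟨mem_univ _, h.five_sub e⟩

/-- **The total.** -/
theorem total (x : Ω) {B2 B3 B4 B7 : ℕ} (h2 : ∀ y, c x y = 2 → N T x y ≤ B2) (h3 : ∀ y, c x y = 3 → N T x y ≤ B3)
    (h4 : ∀ y, c x y = 4 → N T x y ≤ B4) (h7 : ∀ y, c x y = 7 → N T x y ≤ B7) :
    A c T x 2 + A c T x 3 + A c T x 4 + A c T x 5 + A c T x 6 + A c T x 7 + A c T x 8 ≤
      3 * (Col.kk c x 1 * Col.kk c x 1) + 4 * (Col.kk c x 2 * B2) + 4 * (Col.kk c x 3 * B3) + 4 * (Col.kk c x 4 * B4) +
      2 * (Col.kk c x 5 * B2) + 3 * (Col.kk c x 7 * B7) + 2 * Col.kk c x 6 + 2 * Col.kk c x 8 := by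
  have a1 := A_le (T := T) x 1 _ fun y hy => h.N_one hy
  have a2 := A_le x 2 _ h2
  have a3 := A_le x 3 _ h3
  have a4 := A_le x 4 _ h4
  have a7 := A_le x 7 _ h7
  have a5 := A_le (T := T) x 5 B2 fun y hy => h.N_five.trans (h2 _ (h.five x y hy))
  have a6 := h.A6 x
  have a8 := h.A8 x
  omega

end AX

end Cfsg.Agent.H816.M23.Abs
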