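import Cfsg.Agent.H816.M23.Cks

/-!
# The products of two involutions of axes of the Monster, by colour (helper816)

Colours `0, …, 8` = `1A 2A 2B 3A 3C 4A 4B 5A 6A`.
-/

set_option autoImplicit false
set_option maxRecDepth 100000

namespace Cfsg.Agent.H816.M23.ColX

open Cfsg Cfsg.Agent.Monster.VecEngine Cfsg.Agent.Monster.VecSpace
open Cfsg.Agent.MonsterX Cfsg.Agent.MonsterX.Space Cfsg.Agent.MonsterX.Conc Cfsg.Agent.MonsterX.Model
open Cfsg.Agent.MonsterX.InstData Cfsg.Agent.MonsterX.CertUTab Cfsg.Agent.MonsterX.OrdChk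
open Cfsg.Agent.MonsterX.MainBasic Cfsg.Agent.MonsterX.MainTrans
open Cfsg.Agent.H816.MRun Cfsg.Agent.H816.MTab Cfsg.Agent.H816.MCol Cfsg.Agent.H816.MEnt Cfsg.Agent.H816.MSch
open Cfsg.Agent.H816.MCnt Cfsg.Agent.H816.M23.Tx Cfsg.Agent.H816.M23.Cks

theorem all_of {i : Fin 9} {P : XT → XT → Prop} (hinv : ∀ (g : ↥M.G) (x y : XT), P x y → P (g • x) (g • y)) {y₀ : XT}
    (h0 : c b0 y₀ = i) (h : P b0 y₀) {x y : XT} (hc : c x y = i) : P x y := by
  obtain ⟨g, rfl, rfl⟩ := c_tr b0 y₀ x y (h0.trans hc.symm)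
  exact hinv g _ _ h

variable {j m : ℕ}

/-- The representative. -/
noncomputable def yR (h : Val (j, m, false)) : XT := ⟨yE (j, m, false), yE_X h⟩

theorem lt_gw (h : Val (j, m, false)) : ∀ n ∈ gw j m, n < 46 := by
  intro n hn
  unfold gw at hn
  rw [List.mem_append] at hn
  rcases hn with hn | hn
  · exact FieldsP.lt_bj _ h.1 n hn
  · exact lt_uw _ h.1 _ h.2 n hn

theorem gw_mem (h : Val (j, m, false)) : W (gw j m) ∈ M.G := FieldsP.W_mem_G' (lt_gw h)

/-- The element. -/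
noncomputable def gR (h : Val (j, m, false)) : ↥M.G := ⟨W (gw j m), gw_mem h⟩

theorem yR_eq (h : Val (j, m, false)) : yR h = gR h • b0 := by
  apply Subtype.ext
  show yE (j, m, false) = W (gw j m) M.a₀
  rw [yE_false, M_a₀]
  rfl

theorem tX_yR (h : Val (j, m, false)) : (tX (yR h) : V ≃ₗ[ℚ] V) = W (gw j m) * M.t₀ * (W (gw j m))⁻¹ := by
  rw [yR_eq, tX_smul, Subgroup.coe_mul, Subgroup.coe_mul, Subgroup.coe_inv, tX_b0]
  rfl

theorem c_yR (h : Val (j, m, false)) : (c b0 (yR h)).1 = k0 (j, m, false) := col_k0 h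

theorem c_yR' (h : Val (j, m, false)) {i : Fin 9} (hi : k0 (j, m, false) = i.1) : c b0 (yR h) = i :=
  Fin.ext ((c_yR h).trans hi)

/-- The vector `t_y a₀`. -/
theorem cy_val (h : Val (j, m, false)) : (tX (yR h) • b0).1 = W (cyA (gw j m) []) M.a₀ := by
  rw [W_cyA Instance.inv (lt_gw h), W_nil, one_mul, ← tX_yR h]
  rfl

theorem v3 : Val (2, 5, false) := by decide
theorem v4 : Val (4, 6, false) := by decide
theorem v5 : Val (0, 3, false) := by decide
theorem v6 : Val (1, 3, false) := by decide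
theorem v7 : Val (3, 6, false) := by decide
theorem v8 : Val (2, 4, false) := by decide

theorem c3 : c b0 (yR v3) = 3 := c_yR' v3 (by decide)
theorem c4 : c b0 (yR v4) = 4 := c_yR' v4 (by decide)
theorem c5 : c b0 (yR v5) = 5 := c_yR' v5 (by decide)
theorem c6 : c b0 (yR v6) = 6 := c_yR' v6 (by decide)
theorem c7 : c b0 (yR v7) = 7 := c_yR' v7 (by decide)
theorem c8 : c b0 (yR v8) = 8 := c_yR' v8 (by decide)

/-! ### Order three -/

theorem cube_of {x y : XT} (h : tX y • x = tX x • y) : (tX x * tX y) ^ 3 = 1 := by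
  have h1 := congrArg tX h
  rw [tX_smul, tX_smul] at h1
  have hx := tX_sq x
  have hy := tX_sq y
  have ex : (tX x)⁻¹ = tX x := inv_eq_of_mul_eq_one_left hx
  have ey : (tX y)⁻¹ = tX y := inv_eq_of_mul_eq_one_left hy
  rw [ex, ey] at h1
  have h2 : (tX x * tX y) ^ 3 = (tX x * tX y * tX x) * (tX y * tX x * tX y) := by
    simp only [pow_succ, pow_zero, one_mul, mul_assoc]
  rw [h2, h1]
  calc tX x * tX y * tX x * (tX x * tX y * tX x) = tX x * tX y * (tX x * tX x) * tX y * tX x := by group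
    _ = tX x * (tX y * tX y) * tX x := by rw [hx]; group
    _ = 1 := by rw [hy, mul_one, hx]

theorem rep_cube {h : Val (j, m, false)} (hc : eqC (cyA (gw j m) []) (gw j m ++ [13, 14]) = true) :
    (tX b0 * tX (yR h)) ^ 3 = 1 := by
  apply cube_of
  apply Subtype.ext
  rw [cy_val h, eqC_sound hc, W_append]
  show (W [13, 14]) (W (gw j m) M.a₀) = (tX b0 : V ≃ₗ[ℚ] V) (yR h).1
  rw [tX_b0, yR_eq h]
  rfl

theorem pow_inv (n : ℕ) (g : ↥M.G) (x y : XT) (h : (tX x * tX y) ^ n = 1) : (tX (g • x) * tX (g • y)) ^ n = 1 := by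
  rw [tX_smul, tX_smul]
  have e : g * tX x * g⁻¹ * (g * tX y * g⁻¹) = g * (tX x * tX y) * g⁻¹ := by group
  rw [e, conj_pow, h]
  group

/-- Colour `3A`. -/
theorem three {x y : XT} (h : c x y = 3) : (tX x * tX y) ^ 3 = 1 :=
  all_of (P := fun x y => (tX x * tX y) ^ 3 = 1) (pow_inv 3) c3 (rep_cube ck3) h

/-- Colour `3C`. -/
theorem four {x y : XT} (h : c x y = 4) : (tX x * tX y) ^ 3 = 1 :=
  all_of (P := fun x y => (tX x * tX y) ^ 3 = 1) (pow_inv 3) c4 (rep_cube ck4) h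

/-- Colour `5A`. -/
theorem seven {x y : XT} (h : c x y = 7) : (tX x * tX y) ^ 5 = 1 := by
  refine all_of (P := fun x y => (tX x * tX y) ^ 5 = 1) (pow_inv 5) c7 ?_ h
  have h1 := pairC_sound Instance.inv hR.t₀_sq (fun g hg h0 => comm_t₀ hG hR hL hO MEnt.hT hg h0) t₀_G (lt_gw v7)
    (gw_mem v7) ck7
  apply Subtype.ext
  rw [Subgroup.coe_pow, Subgroup.coe_mul, tX_b0, tX_yR v7]
  exact h1

/-- Colour `4A`. -/
theorem five {x y : XT} (h : c x y = 5) : c x (tX y • x) = 2 := by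
  refine all_of (P := fun x y => c x (tX y • x) = 2) ?_ c5 ?_ h
  · intro g x y h
    rw [tX_smul, mul_smul, mul_smul, inv_smul_smul, c_inv, h]
  · have h1 : tX (yR v5) • b0 = b1 := by
      apply Subtype.ext
      rw [cy_val v5, eqC_sound ck5, M_a₀]
      exact FieldsP.x1_a0.trans M_a₁.symm
    show c b0 (tX (yR v5) • b0) = 2
    rw [h1, c_b1]

theorem of_chk {w : List ℕ} {x : XT} (hx : x.1 = W w M.a₀) (h : (cL.any fun c => chk 8 w 256 c []) = true) : c b0 x = 1 := by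
  rw [List.any_eq_true] at h
  obtain ⟨c', -, h1⟩ := h
  have h2 := (chk_sound h1).1
  refine (F_iff (u := 1) a₀_X x.2 (by decide) (by decide)).2 ?_
  show M.F b0.1 x.1 = _
  rw [hx]
  have h3 : M.F M.a₀ (W w M.a₀) = ((256 : ℤ) : ℚ) / 2 ^ 8 := by
    rw [M_a₀]
    exact h2
  have h4 : vv 1 = 32 := by decide
  rw [h4]
  refine h3.trans ?_
  norm_num

/-- Colour `4B`. -/
theorem six {x y : XT} (h : c x y = 6) : c x (tX y • x) = 1 := by
  refine all_of (P := fun x y => c x (tX y • x) = 1) ?_ c6 ?_ h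
  · intro g x y h
    rw [tX_smul, mul_smul, mul_smul, inv_smul_smul, c_inv, h]
  · exact of_chk (cy_val v6) ck6

/-- Colour `6A`. -/
theorem eight {x y : XT} (h : c x y = 8) : c x ((tX y * tX x) • y) = 1 := by
  refine all_of (P := fun x y => c x ((tX y * tX x) • y) = 1) ?_ c8 ?_ h
  · intro g x y h
    have e : (tX (g • y) * tX (g • x)) • g • y = g • (tX y * tX x) • y := by
      rw [tX_smul, tX_smul, ← mul_smul, ← mul_smul]
      congr 1
      group
    rw [e, c_inv, h]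
  · refine of_chk ?_ ck8
    rw [W_append, W_T0, W_cyA Instance.inv (lt_gw v8), W_nil, one_mul, ← tX_yR v8]
    have e : (tX (yR v8) * tX b0) • yR v8 = tX (yR v8) • tX b0 • gR v8 • b0 := by
      rw [← yR_eq v8, mul_smul]
    rw [e, smul_val, smul_val, tX_b0]
    rfl

end Cfsg.Agent.H816.M23.ColX
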