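import Cfsg.Agent.H816.M23.Cnt

/-!
# Counting pairs of `2A`-involutions with a given product: the orbit lemma (helper816)
-/

set_option autoImplicit false
set_option linter.unusedSectionVars false

namespace Cfsg.Agent.H816.M23.Abs.AX

open Cfsg Cfsg.Agent.H816.IMEig
open Finset

universe u v

variable {G : Type u} [Group G] {Ω : Type v} [MulAction G Ω] {c : Ω → Ω → Fin 9} {T : Ω → G}
variable (h : AX G Ω c T)
include h

/-- The stabilizer of a pair. -/
theorem card_st [Finite G] [Finite Ω] (x y : Ω) : Nat.card (MulAction.stabilizer G ((x, y) : Ω × Ω)) *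
    (Nat.card Ω * Col.kk c x (c x y)) = Nat.card G := by
  have e : MulAction.orbit G ((x, y) : Ω × Ω) = {p | c p.1 p.2 = c x y} := by
    ext p
    constructor
    · rintro ⟨g, rfl⟩
      exact h.col.inv g x y
    · intro hp
      obtain ⟨g, h1, h2⟩ := h.col.tr x y p.1 p.2 hp.symm
      exact ⟨g, Prod.ext h1 h2⟩
  have h1 := Nat.card_congr (MulAction.orbitProdStabilizerEquivGroup G ((x, y) : Ω × Ω))
  rw [Nat.card_prod, e] at h1
  have h2 := h.col.card_pairs x (c x y)
  rw [← h2, ← h1, mul_comm]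
  rfl

theorem st_comm {x y : Ω} {u : G} (hu : u ∈ MulAction.stabilizer G ((x, y) : Ω × Ω)) :
    u * T x = T x * u ∧ u * T y = T y * u := by
  have h1 : u • ((x, y) : Ω × Ω) = (x, y) := hu
  exact ⟨(h.fix_iff _ _).1 (congrArg Prod.fst h1), (h.fix_iff _ _).1 (congrArg Prod.snd h1)⟩

theorem exists_order [Finite G] {x y : Ω} {p : ℕ} (hp : p.Prime) (hd : p ∣ Nat.card (MulAction.stabilizer G ((x, y) : Ω × Ω))) :
    ∃ u : G, orderOf u = p ∧ u * T x = T x * u ∧ u * T y = T y * u := by
  have := Fact.mk hp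
  obtain ⟨u, hu⟩ := exists_prime_orderOf_dvd_card' p hd
  exact ⟨u.1, by rw [Subgroup.orderOf_coe, hu], h.st_comm u.2⟩

/-- **The orbit lemma.** -/
theorem orbit [Finite G] [Fintype Ω] {x y : Ω} (hs : ∀ s s', T s * T s' = T x * T y → c s s' = c x y) :
    N T x y * Nat.card G ≤ Nat.card (Subgroup.centralizer ({T x * T y} : Set G)) * (Nat.card Ω * Col.kk c x (c x y)) := by
  classical
  set St := MulAction.stabilizer G ((x, y) : Ω × Ω) with hSt
  have h1 := h.card_st x y
  rw [← hSt] at h1
  have h2 : N T x y * Nat.card St ≤ Nat.card (Subgroup.centralizer ({T x * T y} : Set G)) := by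
    have h3 : N T x y = Nat.card {s // R T (T x * T y) s} := by
      unfold N
      rw [Nat.card_eq_fintype_card, Fintype.card_subtype]
    rw [h3, ← Nat.card_prod]
    have hex : ∀ s : {s // R T (T x * T y) s}, ∃ g : G, g • x = s.1 ∧ g * (T x * T y) = T x * T y * g := by
      rintro ⟨s, s', e⟩
      obtain ⟨g, g1, g2⟩ := h.col.tr x y s s' (hs s s' e).symm
      refine ⟨g, g1, ?_⟩
      rw [← g1, ← g2, h.smul, h.smul] at e
      have e2 : g * (T x * T y) * g⁻¹ = T x * T y :=
        (by group : g * (T x * T y) * g⁻¹ = g * T x * g⁻¹ * (g * T y * g⁻¹)).trans e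
      rwa [mul_inv_eq_iff_eq_mul] at e2
    choose f hf1 hf2 using hex
    refine Nat.card_le_card_of_injective (fun p : {s // R T (T x * T y) s} × St =>
      (⟨f p.1 * p.2.1, ?_⟩ : Subgroup.centralizer ({T x * T y} : Set G))) ?_
    · rw [Subgroup.mem_centralizer_singleton_iff]
      obtain ⟨u1, u2⟩ := h.st_comm p.2.2
      have u3 : p.2.1 * (T x * T y) = T x * T y * p.2.1 := by
        rw [← mul_assoc, u1, mul_assoc, u2, mul_assoc]
      rw [mul_assoc, u3, ← mul_assoc, hf2, mul_assoc]
    · rintro ⟨s, u⟩ ⟨s', u'⟩ e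
      have e1 : f s * u.1 = f s' * u'.1 := congrArg Subtype.val e
      have hu : u.1 • x = x := congrArg Prod.fst (show u.1 • ((x, y) : Ω × Ω) = (x, y) from u.2)
      have hu' : u'.1 • x = x := congrArg Prod.fst (show u'.1 • ((x, y) : Ω × Ω) = (x, y) from u'.2)
      have e2 : s = s' := by
        apply Subtype.ext
        rw [← hf1 s, ← hf1 s']
        calc f s • x = (f s * u.1) • x := by rw [mul_smul, hu]
          _ = (f s' * u'.1) • x := by rw [e1]
          _ = f s' • x := by rw [mul_smul, hu']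
      subst e2
      have e3 : u = u' := Subtype.ext (mul_left_cancel e1)
      rw [e3]
  calc N T x y * Nat.card G = (N T x y * Nat.card St) * (Nat.card Ω * Col.kk c x (c x y)) := by rw [← h1, mul_assoc]
    _ ≤ _ := Nat.mul_le_mul_right _ h2

end Cfsg.Agent.H816.M23.Abs.AX
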