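import Cfsg.Agent.H816.MSch

/-!
# The involutions of the axes of the Monster, as elements of the group (helper816)
-/

set_option autoImplicit false

namespace Cfsg.Agent.H816.M23.Tx

open Cfsg Cfsg.Agent.MonsterX Cfsg.Agent.MonsterX.Space Cfsg.Agent.MonsterX.Conc Cfsg.Agent.MonsterX.InstData
open Cfsg.Agent.MonsterX.Model Cfsg.Agent.MonsterX.MainBasic Cfsg.Agent.MonsterX.MainTrans
open Cfsg.Agent.H816.MCol Cfsg.Agent.H816.MEnt Cfsg.Agent.H816.MSch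

theorem t₀_G : M.t₀ ∈ M.G := C_le (hG.Q_le hR.t₀_mem)

theorem z_G : M.z ∈ M.G := C_le (hG.Q_le hG.z_mem)

theorem tx_G {x : V} (hx : x ∈ M.X) : tx M x ∈ M.G := by
  obtain ⟨g, hg, rfl⟩ := X_eq_orbit hO hx
  rw [tx_of hG hR hL hO MEnt.hT hg]
  exact M.G.mul_mem (M.G.mul_mem hg t₀_G) (M.G.inv_mem hg)

/-- The involution of an axis. -/
noncomputable def tX (x : XT) : ↥M.G := ⟨tx M x.1, tx_G x.2⟩

theorem tX_val (x : XT) : (tX x : V ≃ₗ[ℚ] V) = tx M x.1 := rfl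

theorem tX_smul (g : ↥M.G) (x : XT) : tX (g • x) = g * tX x * g⁻¹ := by
  apply Subtype.ext
  exact tx_smul hG hR hL hO MEnt.hT g.2 x.2

theorem tX_b0 : (tX b0 : V ≃ₗ[ℚ] V) = M.t₀ := tx_a₀ hG hR hL hO MEnt.hT

theorem tX_b1 : (tX b1 : V ≃ₗ[ℚ] V) = M.z * M.t₀ := tx_a₁ hG hR hL hO MEnt.hT

theorem tX_sq (x : XT) : tX x * tX x = 1 := by
  obtain ⟨g, rfl⟩ := c_trans b0 x
  rw [tX_smul]
  have h0 : tX b0 * tX b0 = 1 := Subtype.ext (by
    rw [Subgroup.coe_mul, tX_b0]; exact hR.t₀_sq)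
  calc g * tX b0 * g⁻¹ * (g * tX b0 * g⁻¹) = g * (tX b0 * tX b0) * g⁻¹ := by group
    _ = 1 := by rw [h0]; group

theorem tX_ne (x : XT) : tX x ≠ 1 := by
  obtain ⟨g, rfl⟩ := c_trans b0 x
  intro h
  rw [tX_smul, mul_inv_eq_one, mul_eq_left] at h
  have h1 := congrArg (fun e : ↥M.G => (e : V ≃ₗ[ℚ] V)) h
  simp only [tX_b0] at h1
  exact hR.t₀_ne h1

theorem tX_inj {x y : XT} (h : tX x = tX y) : x = y := by
  obtain ⟨g, rfl⟩ := c_trans b0 x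
  obtain ⟨k, rfl⟩ := c_trans b0 y
  rw [tX_smul, tX_smul] at h
  have h1 := congrArg (fun e : ↥M.G => (e : V ≃ₗ[ℚ] V)) h
  simp only [Subgroup.coe_mul, Subgroup.coe_inv, tX_b0] at h1
  exact Subtype.ext (conj_inj hG hR hL hO MEnt.hT g.2 k.2 h1)

theorem fix_iff (x : XT) (g : ↥M.G) : g • x = x ↔ g * tX x = tX x * g := by
  constructor
  · intro h
    have h1 := tX_smul g x
    rw [h, eq_mul_inv_iff_mul_eq] at h1
    exact h1.symm
  · intro h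
    apply tX_inj
    rw [tX_smul, h, mul_inv_cancel_right]

/-- The central involution. -/
noncomputable def zG : ↥M.G := ⟨M.z, z_G⟩

theorem b0_b1 : tX b0 * tX b1 = zG := by
  apply Subtype.ext
  rw [Subgroup.coe_mul, tX_b0, tX_b1, ← mul_assoc]
  have h := hG.z_comm M.t₀ (hG.Q_le hR.t₀_mem)
  rw [h, mul_assoc, hR.t₀_sq, mul_one]
  rfl

theorem zG_sq : zG * zG = 1 := Subtype.ext hG.z_sq

theorem zG_ne : zG ≠ 1 := fun h => hG.z_ne (congrArg (fun e : ↥M.G => (e : V ≃ₗ[ℚ] V)) h)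

/-- The centralizer of `z` preserves the base orbit. -/
theorem cz_S {g : ↥M.G} (hg : g * zG = zG * g) : g • b0 ∈ SX := by
  have h1 := congrArg (fun e : ↥M.G => (e : V ≃ₗ[ℚ] V)) hg
  exact C_S (cent_z hG hR hL hO MEnt.hT g.2 h1) b0_S

end Cfsg.Agent.H816.M23.Tx
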